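import Mathlib
import Cfsg.Agent.PN4.Red

/-! A relative form of the reduction to the configuration `Cfg`. -/

set_option autoImplicit false

namespace Cfsg.Agent.PN4

open Subgroup Cfsg.Agent.GT.Tr Cfsg.Agent.Loc.Mss

universe u

variable {G : Type u} [Group G] [Finite G] {p : ℕ} [hp : Fact p.Prime]

/-- a `p`-element of `C_X(D)` outside `D` and outside `Z(X)` -/
theorem exists_elt {X D : Subgroup G} (hD : IsPGroup p D) (hC : ¬ PN p (X ⊓ 𝐂[D]))
    (hmax : ∀ E : Subgroup G, IsPGroup p E ∧ ¬ PN p (X ⊓ 𝐂[E]) → D ≤ E → E = D) :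
    ∃ y ∈ X, (∃ k, orderOf y = p ^ k) ∧ y ∉ 𝐂[X] ∧
      Nat.card D * p ∣ Nat.card (centralizer ({y} : Set G)) := by
  obtain ⟨P⟩ : Nonempty (Sylow p ↥(X ⊓ 𝐂[D])) := inferInstance
  obtain ⟨y, hy, hyD⟩ : ∃ y ∈ P, (y : G) ∉ D := by
    by_contra h
    push Not at h
    exact hC (pn_iff.2 (hasNormalPComplement_of_sylow_le_center P fun y hy =>
      mem_center_iff.2 fun z => Subtype.ext (mem_cent.1 z.2.2 _ (h y hy)).symm))
  obtain ⟨k, hk⟩ := IsPGroup.iff_orderOf.1 P.2 ⟨y, hy⟩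
  rw [← Subgroup.orderOf_coe, ← Subgroup.orderOf_coe] at hk
  have h2 : IsPGroup p ↥(D ⊔ zpowers (y : G)) := pg_sup' hD
    (IsPGroup.of_card (by rw [Nat.card_zpowers]; exact hk)) (zpowers_le.2 (cent_le_norm D y.2.2))
  refine ⟨y, y.2.1, ⟨k, hk⟩, fun h => hyD ?_, ?_⟩
  · refine (hmax _ ⟨h2, fun h3 => hC (h3.mono fun z hz => ⟨hz.1, ?_⟩)⟩ le_sup_left).le
      (mem_sup_right (mem_zpowers (y : G)))
    rw [cent_sup]
    exact ⟨hz.2, cent_comm (zpowers_le.2 h) hz.1⟩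
  · have h3 : D ⊔ zpowers (y : G) ≤ centralizer {(y : G)} := sup_le
      (fun d hd => mem_centralizer_singleton_iff.2 (mem_cent.1 y.2.2 d hd))
      (zpowers_le.2 (mem_centralizer_singleton_iff.2 rfl))
    refine Dvd.dvd.trans ?_ (card_dvd_of_le h3)
    obtain ⟨a, ha⟩ := IsPGroup.iff_card.1 hD
    obtain ⟨b, hb⟩ := IsPGroup.iff_card.1 h2
    have h4 : Nat.card D < Nat.card ↥(D ⊔ zpowers (y : G)) := lt_of_le_of_ne
      (card_le_of_le le_sup_left) fun e => hyD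
        ((eq_of_le_of_card_ge le_sup_left e.ge).ge (mem_sup_right (mem_zpowers (y : G))))
    rw [ha, hb] at h4 ⊢
    rw [← pow_succ]
    exact pow_dvd_pow p ((Nat.pow_lt_pow_iff_right hp.out.one_lt).1 h4)

theorem red2 {X : Subgroup G} [X.Normal]
    (h : ∀ D : Subgroup G, IsPGroup p D → ¬ PN p (X ⊓ 𝐂[D]) →
      (∀ E : Subgroup G, IsPGroup p E ∧ ¬ PN p (X ⊓ 𝐂[E]) → D ≤ E → E = D) →
      ∀ x ∈ X ⊓ 𝐂[D], Prim p x → Nat.card D * p ∣ Nat.card (centralizer ({x} : Set G)))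
    (IH : ∀ (L : Type u) [Group L] [Finite L] (M : Subgroup L), M.Normal →
      Nat.card L ∣ Nat.card G → Cfg p M → PN p M) : PN p X := by
  by_contra hn
  obtain ⟨D, -, ⟨hD, hC⟩, hmax⟩ := GT.exists_maximal_ge
    (P := fun D : Subgroup G => IsPGroup p D ∧ ¬ PN p (X ⊓ 𝐂[D])) (H := ⊥)
    ⟨IsPGroup.of_bot, by rw [cent_bot, inf_top_eq]; exact hn⟩
  set N := 𝐍[D] with hN
  have hXN : X ⊓ 𝐂[D] ≤ N := inf_le_right.trans (cent_le_norm D)
  let π := QuotientGroup.mk' (D.subgroupOf N)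
  let f : ↥(X ⊓ 𝐂[D]) →* N ⧸ D.subgroupOf N := π.comp (inclusion hXN)
  have hker : ∀ x : N, π x = 1 ↔ (x : G) ∈ D := fun x => QuotientGroup.eq_one_iff x
  have hcard : Nat.card D * Nat.card (N ⧸ D.subgroupOf N) ∣ Nat.card G := by
    have := card_eq_card_quotient_mul_card_subgroup (D.subgroupOf N)
    rw [Nat.card_congr (subgroupOfEquivOfLe le_normalizer).toEquiv] at this
    rw [mul_comm, ← this]
    exact card_subgroup_dvd_card N
  have hM : ¬ PN p f.range := fun hM => hC (pn_of_hom f (fun x hx => by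
    have : (x : G) ∈ D := (hker _).1 hx
    exact mem_center_iff.2 fun y => Subtype.ext (mem_cent.1 y.2.2 _ this).symm) hM)
  have hMd : Nat.card f.range ∣ Nat.card (N ⧸ D.subgroupOf N) := card_subgroup_dvd_card _
  refine hM (IH _ _ ⟨?_⟩ ((Dvd.intro_left _ rfl).trans hcard) ⟨?_, ?_⟩)
  · rintro _ ⟨x, rfl⟩ g
    obtain ⟨g, rfl⟩ := QuotientGroup.mk'_surjective _ g
    exact ⟨⟨g * x * (g : G)⁻¹, conj_mem_of_norm (norm_inf (norm_normal N X) (norm_cent le_rfl) g.2) x.2⟩, rfl⟩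
  · intro s hs
    obtain ⟨s, rfl⟩ := QuotientGroup.mk'_surjective _ s
    obtain ⟨a, -, ha, j, hj⟩ := lift_pow (p := p) π (x := s) (k := 1)
      (by rw [pow_one, ← hs]; exact pow_orderOf_eq_one _)
    change orderOf (π s) = p at hs
    change PN p (f.range ⊓ centralizer {π s})
    rw [← ha] at hs ⊢
    have h1 : (a : G) ∉ D := fun e => by
      rw [(hker a).2 e, orderOf_one] at hs
      exact hp.out.one_lt.ne hs
    have h2 : IsPGroup p ↥(D ⊔ zpowers (a : G)) := pg_sup' hD (pg_iff.2 fun z hz => ⟨j, by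
      rw [← hj, ← Subgroup.orderOf_coe]
      exact orderOf_dvd_iff_pow_eq_one.1 (orderOf_dvd_of_mem_zpowers hz)⟩) (zpowers_le.2 a.2)
    have h3 : PN p (X ⊓ 𝐂[D ⊔ zpowers (a : G)]) := by
      by_contra h3
      exact h1 (hmax _ ⟨h2, h3⟩ le_sup_left ▸ mem_sup_right (mem_zpowers (a : G)))
    have key : ∀ x ∈ f.range ⊓ centralizer {π a}, (orderOf x).Coprime p →
        ∃ y : ↥(X ⊓ 𝐂[D]), f y = x ∧ (orderOf (y : G)).Coprime p ∧
          (y : G) ∈ X ⊓ 𝐂[D ⊔ zpowers (a : G)] := by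
      rintro _ ⟨⟨x, rfl⟩, hx⟩ hc
      obtain ⟨y, -, hy, hy'⟩ := lift_coprime f hc
      rw [← Subgroup.orderOf_coe] at hy'
      refine ⟨y, hy, hy', ?_⟩
      rw [← hy] at hx
      have h4 : π a * f y = f y * π a := hx _ rfl
      have h5 : Commute (y : G) a := commute_of_mod hD y.2.2 hy' (by
        have : π (a⁻¹ * (inclusion hXN y * a * (inclusion hXN y)⁻¹)) = 1 := by
          rw [map_mul, map_mul, map_mul, map_inv, map_inv]
          change (π a)⁻¹ * (f y * π a * (f y)⁻¹) = 1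
          rw [← h4]; group
        exact (hker _).1 this)
      rw [cent_sup]
      refine ⟨y.2.1, y.2.2, mem_cent.2 ?_⟩
      rintro _ ⟨n, rfl⟩
      exact (h5.zpow_right n).symm
    intro x hx y hy hx' hy'
    obtain ⟨x, rfl, a1, a2⟩ := key x hx hx'
    obtain ⟨y, rfl, b1, b2⟩ := key y hy hy'
    rw [← map_mul]
    apply coprime_map
    rw [← Subgroup.orderOf_coe]
    exact h3 _ a2 _ b2 a1 b1
  · rintro _ ⟨w, rfl⟩ hw
    obtain ⟨x, -, hx, hx'⟩ := lift_prim f hw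
    rw [← hx]
    have h1 : Prim p (x : G) := by
      obtain ⟨r, k, a, b, c⟩ := hx'
      exact ⟨r, k, a, b, by rwa [Subgroup.orderOf_coe]⟩
    have hle : D ≤ centralizer ({(x : G)} : Set G) := fun d hd =>
      mem_centralizer_singleton_iff.2 (mem_cent.1 x.2.2 d hd)
    obtain ⟨s, s1, s2, s3, s4⟩ := exists_bigger hD hle (h D hD hC hmax x x.2 h1)
    refine ⟨π ⟨s, s2⟩, orderOf_eq_prime ?_ fun e => s3 ((hker _).1 e), ?_⟩
    · rw [← map_pow]
      exact (hker _).2 s4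
    · have : Commute (⟨s, s2⟩ : N) (inclusion hXN x) :=
        Subtype.ext (mem_centralizer_singleton_iff.1 s1)
      exact this.map π

end Cfsg.Agent.PN4
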